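import Cfsg.Agent.TT.Singular

/-! Singular subgroups. -/

set_option autoImplicit false

namespace Cfsg.Agent.TT

open Cfsg Cfsg.Agent.GT Subgroup
open scoped commutatorElement

/-- a singular subgroup -/
structure Sing {G : Type*} [Group G] (U : Subgroup G) : Prop where
  sq : ∀ u ∈ U, u * u = 1
  lq : ∀ u ∈ U, u ≠ 1 → LQ (Op 2 C1[u]) u
  orth : ∀ u ∈ U, ∀ v ∈ U, u ≠ 1 → v ≠ 1 → v ∈ Op 2 C1[u]

section

variable {G : Type*} [Group G] {U W : Subgroup G} {z x u v : G}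

theorem Sing.of [Finite G] (hz : orderOf z = 2) (hE : IsExtraspecial 2 (Op 2 C1[z]))
    (hC : C[Op 2 C1[z]] ≤ Op 2 C1[z]) (hU2 : ∀ u ∈ U, u * u = 1)
    (hS : ∀ u ∈ U, u ≠ 1 → ∃ g : G, g * z * g⁻¹ = u)
    (hO : ∀ u ∈ U, ∀ v ∈ U, u ≠ 1 → v ≠ 1 → v ∈ Op 2 C1[u]) : Sing U := by
  refine ⟨hU2, fun u hu h1 => ?_, hO⟩
  obtain ⟨g, rfl⟩ := hS u hu h1
  rw [Op_cent1_conj]
  exact (LQ.of_Op hz hE hC).conj_ g

theorem Sing.le (h : Sing U) (hu : u ∈ U) (h1 : u ≠ 1) : U ≤ Op 2 C1[u] := fun v hv => by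
  by_cases e : v = 1
  · rw [e]; exact one_mem _
  · exact h.orth u hu v hv h1 e

theorem Sing.le_norm (h : Sing U) (hu : u ∈ U) (h1 : u ≠ 1) : Op 2 C1[u] ≤ N[U] :=
  (h.lq u hu h1).le_norm (h.le hu h1) hu

theorem Sing.comm (h : Sing U) (hu : u ∈ U) (hv : v ∈ U) : Commute u v :=
  commute_of_sq (h.sq u hu) (h.sq v hv) (by rw [pow_two]; exact h.sq _ (U.mul_mem hu hv))

theorem Sing.mem_sup_zp (h : Sing U) (hW : W ≤ U) (hv : v ∈ U) (hx : x ∈ W ⊔ zpowers v) :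
    ∃ w ∈ W, x = w ∨ x = w * v := by
  have : zpowers v ≤ N[W] := le_norm_of_cent
    (zpowers_le.2 fun w hw => (h.comm (hW hw) hv).eq)
  rw [mem_sup_of_le_norm' this] at hx
  obtain ⟨w, hw, y, hy, rfl⟩ := hx
  rcases (mem_zpowers_of_sq (h.sq v hv)).1 hy with rfl | rfl
  · exact ⟨w, hw, Or.inl (mul_one w)⟩
  · exact ⟨w, hw, Or.inr rfl⟩

theorem Sing.induce [Finite G] (h : Sing U) {L : Subgroup G}
    (hL : ∀ u ∈ U, u ≠ 1 → Op 2 C1[u] ≤ L) (W : Subgroup G) :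
    W ≤ U → ∀ φ : G → G, (∀ u ∈ U, φ u ∈ U) → (∀ a ∈ U, ∀ b ∈ U, φ (a * b) = φ a * φ b) →
      (∀ a ∈ U, ∀ b ∈ U, φ a = φ b → a = b) → (∀ w ∈ W, φ w = w) →
      ∃ g ∈ L, ∀ u ∈ U, g * u * g⁻¹ = φ u := by
  induction W using (wellFounded_gt (α := Subgroup G)).induction with
  | _ W ih =>
  intro hW φ h1 h2 h3 h4
  by_cases hUW : U ≤ W
  · exact ⟨1, one_mem _, fun u hu => by rw [h4 u (hUW hu)]; simp⟩
  obtain ⟨v, hv, hvW⟩ := SetLike.not_le_iff_exists.1 hUW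
  have hlt : W ⊔ zpowers v > W := left_lt_sup.2 fun e => hvW (e (mem_zpowers v))
  have hle : W ⊔ zpowers v ≤ U := sup_le hW (zpowers_le.2 hv)
  obtain ⟨q, hqL, hqN, hqW, hqv⟩ : ∃ q ∈ L, q ∈ N[U] ∧ (∀ w ∈ W, Commute q w) ∧
      q * v * q⁻¹ = φ v := by
    by_cases e : φ v = v
    · exact ⟨1, one_mem _, one_mem _, fun w _ => Commute.one_left w, by simp [e]⟩
    have hu : v * φ v ∈ U := U.mul_mem hv (h1 v hv)
    have hu1 : v * φ v ≠ 1 := fun e' => e (by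
      rw [← sq_cancel (h.sq v hv) (φ v), e', mul_one])
    have hq := h.lq _ hu hu1
    obtain ⟨q, hq1, hq2, hq3⟩ := hq.exists_cent_not (W := W ⊔ zpowers (v * φ v)) (x := v)
      ((sup_le hW (zpowers_le.2 hu)).trans (h.le hu hu1)) (mem_sup_right (mem_zpowers _))
      (h.le hu hu1 hv) (fun hm => by
        obtain ⟨w, hw, e' | e'⟩ := h.mem_sup_zp hW hu hm
        · exact hvW (e' ▸ hw)
        · have e2 : φ v = w := by
            have := h.sq w (hW hw)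
            have h5 := h.sq _ (h1 v hv)
            have h6 := (h.comm (hW hw) hv).eq
            calc φ v = w * (v * (v * (w * φ v))) := by rw [sq_cancel (h.sq v hv), sq_cancel this]
              _ = w * (v * (w * (v * φ v))) := by rw [← mul_assoc v w, ← h6, mul_assoc]
              _ = w := by rw [← e', h.sq v hv, mul_one]
          exact hvW (h3 v hv w (hW hw) (by rw [e2, h4 w hw]) ▸ hw))
    refine ⟨q, hL _ hu hu1 hq1, h.le_norm hu hu1 hq1, fun w hw => hq2 w (mem_sup_left hw), ?_⟩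
    rw [hq.conj_of_not hq1 (h.le hu hu1 hv) hq3, sq_cancel (h.sq v hv)]
  obtain ⟨g, hg, hg'⟩ := ih _ hlt hle (fun x => q⁻¹ * φ x * q)
    (fun u hu => by simpa using conj_mem_of_mem_norm (inv_mem hqN) (h1 u hu))
    (fun a ha b hb => by simp [h2 a ha b hb, mul_assoc])
    (fun a ha b hb e => h3 a ha b hb (by simpa using e))
    (fun x hx => by
      have a1 : ∀ w ∈ W, q⁻¹ * w * q = w := fun w hw => by
        rw [mul_assoc, ← (hqW w hw).eq, inv_mul_cancel_left]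
      obtain ⟨w, hw, rfl | rfl⟩ := h.mem_sup_zp hW hv hx
      · rw [h4 x hw, a1 x hw]
      · rw [h2 w (hW hw) v hv, h4 w hw, ← hqv]
        conv_rhs => rw [← a1 w hw]
        simp [mul_assoc])
  refine ⟨q * g, L.mul_mem hqL hg, fun u hu => ?_⟩
  have := hg' u hu
  calc q * g * u * (q * g)⁻¹ = q * (g * u * g⁻¹) * q⁻¹ := by simp [mul_assoc]
    _ = φ u := by rw [this]; simp [mul_assoc]

theorem Sing.mem_mul [Finite G] (h : Sing U) (hu : u ∈ U) (hv : v ∈ U) (hu1 : u ≠ 1) (hv1 : v ≠ 1)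
    (huv : u * v ≠ 1) (h1 : x ∈ Op 2 C1[u]) (h2 : x ∈ Op 2 C1[v]) : x ∈ Op 2 C1[u * v] := by
  have hq := h.lq u hu hu1
  obtain ⟨q, hq1, hq2⟩ := hq.exists_not_commute (h.le hu hu1 hv) hv1
    (fun e => huv (by rw [e, h.sq u hu]))
  have e := hq.conj_of_not hq1 (h.le hu hu1 hv) hq2
  have h3 : q * x * q⁻¹ ∈ Op 2 C1[u * v] := by
    rw [(h.comm hu hv).eq, ← e, Op_cent1_conj]; exact conj_mem_conj.2 h2
  by_cases hc : Commute q x
  · rwa [commute_iff_conj.1 hc] at h3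
  · rw [hq.conj_of_not hq1 h1 hc] at h3
    exact (mul_mem_cancel_right (h.le (U.mul_mem hu hv) huv hu)).1 h3

end

end Cfsg.Agent.TT
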